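import Mathlib
import Cfsg.Agent.H540.E8C.Sz.Iface

/-!
# S5919, the row `Sz(8)`: sums over the group and Sylow 13-subgroups
-/

set_option autoImplicit false

namespace Cfsg.Agent.H934.Sz

open Cfsg.Agent.H540.E8C.Sz

variable {Q : Type} [Group Q] [Finite Q]

theorem coprime_orders {g : Q} {a b : ℕ} (ha : g ^ a = 1) (hb : g ^ b = 1) (h : a.Coprime b) : g = 1 := by
  have h1 := orderOf_dvd_of_pow_eq_one ha
  have h2 := orderOf_dvd_of_pow_eq_one hb
  have h3 := Nat.dvd_gcd h1 h2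
  rw [Nat.Coprime.gcd_eq_one h] at h3
  exact orderOf_eq_one_iff.1 (Nat.dvd_one.1 h3)

/-- **The lower bound of the sum.** -/
theorem sum_bound [Fintype Q] (hN : Num Q) {t : ℤ} {b : Q → ℤ} (h1 : b 1 = 248)
    (h4 : ∀ g : Q, g ^ 4 = 1 → -8 ≤ b g) (h4' : ∀ g : Q, g ^ 4 = 1 → g ^ 2 ≠ 1 → -4 ≤ b g)
    (h5 : ∀ g : Q, g ^ 5 = 1 → -2 ≤ b g) (h7 : ∀ g : Q, g ^ 7 = 1 → 3 ≤ b g)
    (h13 : ∀ g : Q, g ^ 13 = 1 → g ≠ 1 → t ≤ b g) : 6720 * t - 6716 ≤ ∑ g, b g := by
  classical
  obtain ⟨g0, hg0, hg0'⟩ := hN.ex4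
  have hne0 : g0 ≠ 1 := by
    rintro rfl
    exact hg0' (one_pow 2)
  have key : ∀ g : Q, 3 + (-11) * (if g ^ 4 = 1 then (1 : ℤ) else 0) + (-5) * (if g ^ 5 = 1 then (1 : ℤ) else 0) +
      (t - 3) * (if g ^ 13 = 1 then (1 : ℤ) else 0) + (264 - t) * (if g = 1 then (1 : ℤ) else 0) +
      4 * (if g = g0 then (1 : ℤ) else 0) ≤ b g := by
    intro g
    by_cases hg1 : g = 1
    · subst hg1
      rw [if_pos (one_pow _), if_pos (one_pow _), if_pos (one_pow _), if_pos rfl, if_neg (Ne.symm hne0), h1]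
      linarith
    · rw [if_neg hg1]
      rcases hN.spec g with h | h | h | h
      · have n5 : ¬ g ^ 5 = 1 := fun h' => hg1 (coprime_orders h h' (by norm_num))
        have n13 : ¬ g ^ 13 = 1 := fun h' => hg1 (coprime_orders h h' (by norm_num))
        rw [if_pos h, if_neg n5, if_neg n13]
        by_cases hgg : g = g0
        · rw [if_pos hgg]
          have := h4' g h (hgg ▸ hg0')
          linarith
        · rw [if_neg hgg]
          have := h4 g h
          linarith
      · have n4 : ¬ g ^ 4 = 1 := fun h' => hg1 (coprime_orders h h' (by norm_num))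
        have n13 : ¬ g ^ 13 = 1 := fun h' => hg1 (coprime_orders h h' (by norm_num))
        have n0 : ¬ g = g0 := fun h' => n4 (h' ▸ hg0)
        rw [if_pos h, if_neg n4, if_neg n13, if_neg n0]
        have := h5 g h
        linarith
      · have n4 : ¬ g ^ 4 = 1 := fun h' => hg1 (coprime_orders h h' (by norm_num))
        have n5 : ¬ g ^ 5 = 1 := fun h' => hg1 (coprime_orders h h' (by norm_num))
        have n13 : ¬ g ^ 13 = 1 := fun h' => hg1 (coprime_orders h h' (by norm_num))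
        have n0 : ¬ g = g0 := fun h' => n4 (h' ▸ hg0)
        rw [if_neg n4, if_neg n5, if_neg n13, if_neg n0]
        have := h7 g h
        linarith
      · have n4 : ¬ g ^ 4 = 1 := fun h' => hg1 (coprime_orders h h' (by norm_num))
        have n5 : ¬ g ^ 5 = 1 := fun h' => hg1 (coprime_orders h h' (by norm_num))
        have n0 : ¬ g = g0 := fun h' => n4 (h' ▸ hg0)
        rw [if_pos h, if_neg n4, if_neg n5, if_neg n0]
        have := h13 g h hg1
        linarith
  have h := Finset.sum_le_sum fun g (_ : g ∈ (Finset.univ : Finset Q)) => key g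
  have hc : ∀ (p : Q → Prop) [DecidablePred p], ∑ g : Q, (if p g then (1 : ℤ) else 0) = (Nat.card {g : Q // p g} : ℤ) := by
    intro p _
    rw [Finset.sum_boole, Nat.card_eq_fintype_card, Fintype.card_subtype]
  have hq : (Finset.univ : Finset Q).card = 29120 := by
    rw [Finset.card_univ, ← Nat.card_eq_fintype_card, hN.card]
  simp only [Finset.sum_add_distrib, ← Finset.mul_sum, Finset.sum_const, hq, hc fun g => g ^ 4 = 1,
    hc fun g => g ^ 5 = 1, hc fun g => g ^ 13 = 1, hN.n2, hN.n5, hN.n13, Finset.sum_ite_eq', Finset.mem_univ,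
    if_true] at h
  norm_num at h
  linarith

/-- elements of order 13 are conjugate to powers of any one of them -/
theorem conj_pow (hN : Num Q) {y g : Q} (hy : y ^ 13 = 1) (hy1 : y ≠ 1) (hg : g ^ 13 = 1) (hg1 : g ≠ 1) :
    ∃ (h : Q) (d : ℕ), ¬ 13 ∣ d ∧ h * g * h⁻¹ = y ^ d := by
  have hp : Fact (Nat.Prime 13) := ⟨by norm_num⟩
  have hfac : (Nat.card Q).factorization 13 = 1 := by
    rw [hN.card]
    have h1 : (29120 : ℕ) = 13 ^ 1 * 2240 := by norm_num
    rw [h1]
    rw [Nat.factorization_mul (by norm_num) (by norm_num), Nat.Prime.factorization_pow hp.out]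
    simp only [Finsupp.coe_add, Pi.add_apply, Finsupp.single_eq_same]
    rw [Nat.factorization_eq_zero_of_not_dvd (by norm_num)]
  have hz : ∀ x : Q, x ^ 13 = 1 → x ≠ 1 → Nat.card (Subgroup.zpowers x) = 13 ^ (Nat.card Q).factorization 13 := by
    intro x hx hx1
    rw [hfac, pow_one, Nat.card_zpowers, orderOf_eq_prime hx hx1]
  let P : Sylow 13 Q := Sylow.ofCard (Subgroup.zpowers g) (hz g hg hg1)
  let R : Sylow 13 Q := Sylow.ofCard (Subgroup.zpowers y) (hz y hy hy1)
  obtain ⟨h, hh⟩ := MulAction.exists_smul_eq Q P R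
  have h2 : h * g * h⁻¹ ∈ (R : Subgroup Q) := by
    rw [← hh]
    have h3 : g ∈ (P : Subgroup Q) := Subgroup.mem_zpowers g
    exact Subgroup.smul_mem_pointwise_smul g (MulAut.conj h) (P : Subgroup Q) h3
  have h3 : h * g * h⁻¹ ∈ Subgroup.zpowers y := h2
  obtain ⟨d, hd⟩ := Cfsg.Agent.H540.E8C.exists_nat_pow (by norm_num) hy h3
  refine ⟨h, d, fun hdvd => ?_, hd⟩
  obtain ⟨e, rfl⟩ := hdvd
  rw [pow_mul, hy, one_pow] at hd
  apply hg1
  have h5 : h * g = h := by
    have := mul_inv_eq_one.1 hd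
    exact this
  exact mul_eq_left.1 h5

end Cfsg.Agent.H934.Sz
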