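import Mathlib
import Cfsg.Agent.H934.Sz.Count
import Cfsg.Agent.H451.L7.Dim
import Cfsg.Agent.H942.L7.Val7

/-!
# S5919, the row `Sz(8)`: task SZ2, the dimension of the fixed space
-/

set_option autoImplicit false
set_option linter.unusedSectionVars false
set_option maxRecDepth 100000

namespace Cfsg.Agent.H934.Sz

open Cfsg Cfsg.Lie Cfsg.Lie.ChevalleyDatum
open Cfsg.Agent.ChevalleyStructure Cfsg.Agent.ChevalleyStructure.CoxeterGeomTypes
open Cfsg.Agent.H942.E8Tab Cfsg.Agent.H942.E8Alc Cfsg.Agent.H942.ValsChar Cfsg.Agent.H942.E8Val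
open Cfsg.Agent.H942.CB
open Cfsg.Agent.H944.RootVals Cfsg.Agent.H944.Tab Cfsg.Agent.H944.Kac
open Cfsg.Agent.H657 IsLocalRing Module
open Cfsg.Agent.H540.E8C Cfsg.Agent.H540.E8C.End Cfsg.Agent.H540.E8C.Sz

theorem gen13 : ∀ u : ZMod 13, u ≠ 0 → ∃ k < 3, ∃ j < 4, u = (3 : ZMod 13) ^ k * 5 ^ j := by decide

section Values

variable {V : ValuationSubring ℂ} [CharP (ResidueField V) 3] {G : Type*} [Group G] {F : G →* E}

/-- **Elements of order 13 conjugate to their fifth powers.** -/
theorem val13 {g : G} (hg : g ^ 13 = 1) (hne : F g ≠ 1) (h5 : ∃ h : E, h * F g * h⁻¹ = F g ^ 5) :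
    ∃ t : ℤ, (∀ d : ℕ, ¬ 13 ∣ d → bc 3 (adj V F) (g ^ d) = t) ∧
      (((t = 1 ∨ t = 14) ∧ Partner 13 (F g)) ∨
        (t = 66 ∧ 18743628421389393110651003031810837312 ≤ Nat.card ↥(Subgroup.centralizer {F g}))) := by
  have : Fact (Nat.Prime 13) := ⟨by norm_num⟩
  obtain ⟨Y, ξ, h, hT⟩ := exists_specT (V := V) F (N := 13) (by norm_num) (by norm_num) hg
  have hus : ∀ u : ZMod 13, u ≠ 0 → ms chevE8 8 (vecL 13 Y) = (ms chevE8 8 (vecL 13 Y)).map (fun a => u * a) := by
    intro u hu
    obtain ⟨k, -, j, -, hk⟩ := gen13 u hu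
    rw [hk]
    exact map_mul_mul (map_mul_pow h.frob k) (map_mul_pow (h.conj 5 h5) j)
  have hval : ∀ d : ℕ, ¬ 13 ∣ d → 12 * bc 3 (adj V F) (g ^ d) = 26 * (cnt 13 1 0 Y : ℂ) - 144 := by
    intro d hd
    have := bc_prime h hus hd
    push_cast at this
    linear_combination this
  have hmain := thirteen hg hne h hT
  -- the case `cnt = 15` is impossible
  have h15 : cnt 13 1 0 Y ≠ 15 := by
    intro hc
    have h1 := allAlc_spec th8 13 _ (by decide) check13 Y h.len h.alc
    have h2 : invB 13 3 R8 Y = true := invB_of (by norm_num) tab8 len8 h.frob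
    have h3 : invB 13 5 R8 Y = true := invB_of (by norm_num) tab8 len8 (h.conj 5 h5)
    rw [h2, cond_true, decide_eq_true_iff] at h1
    unfold L13 at h1
    simp only [List.mem_cons, List.not_mem_nil, or_false] at h1
    rcases h1 with rfl | rfl | rfl | rfl | rfl | rfl | rfl
    · exact absurd hc (by decide +kernel)
    · exact absurd hc (by decide +kernel)
    · exact absurd hc (by decide +kernel)
    · exact absurd hc (by decide +kernel)
    · exact absurd hc (by decide +kernel)
    · exact absurd h3 (by decide +kernel)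
    · exact absurd h3 (by decide +kernel)
  rcases hmain with ⟨hc | hc, hP⟩ | ⟨hc, -⟩ | ⟨hc, hb⟩
  · refine ⟨1, fun d hd => ?_, Or.inl ⟨Or.inl rfl, hP⟩⟩
    have := hval d hd
    rw [hc] at this
    push_cast at this ⊢
    linear_combination this / 12
  · refine ⟨14, fun d hd => ?_, Or.inl ⟨Or.inr rfl, hP⟩⟩
    have := hval d hd
    rw [hc] at this
    push_cast at this ⊢
    linear_combination this / 12
  · exact absurd hc h15
  · refine ⟨66, fun d hd => ?_, Or.inr ⟨rfl, hb⟩⟩
    have := hval d hd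
    rw [hc] at this
    push_cast at this ⊢
    linear_combination this / 12

/-- **The values.** -/
theorem exists_val (V : ValuationSubring ℂ) [CharP (ResidueField V) 3] {Q : Type} [Group Q] [Finite Q] (hN : Num Q)
    {F : Q →* E} (hF : Function.Injective F) : ∃ b : Q → ℤ, (∀ g, bc 3 (adj V F) g = b g) ∧ b 1 = 248 ∧
    (∀ g : Q, g ^ 4 = 1 → -8 ≤ b g) ∧ (∀ g : Q, g ^ 4 = 1 → g ^ 2 ≠ 1 → -4 ≤ b g) ∧
    (∀ g : Q, g ^ 5 = 1 → -2 ≤ b g) ∧ (∀ g : Q, g ^ 7 = 1 → 3 ≤ b g) ∧
    (∀ g : Q, g ^ 13 = 1 → g ≠ 1 → 1 ≤ b g) := by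
  have hne : ∀ g : Q, g ≠ 1 → F g ≠ 1 := fun g hg h => hg (hF (by rw [h, map_one]))
  have hb1 : bc 3 (adj V F) (1 : Q) = ((248 : ℤ) : ℂ) := by
    obtain ⟨t, -, ht, ht'⟩ := val5 V F (g := (1 : Q)) (one_pow 5)
    have h1 := ht 1 (by norm_num)
    rw [one_pow] at h1
    rw [h1, ht'.1 (map_one F)]
  have key : ∀ g : Q, ∃ b : ℤ, bc 3 (adj V F) g = b ∧ (g = 1 → b = 248) ∧ (g ^ 4 = 1 → -8 ≤ b) ∧
      (g ^ 4 = 1 → g ^ 2 ≠ 1 → -4 ≤ b) ∧ (g ^ 5 = 1 → -2 ≤ b) ∧ (g ^ 7 = 1 → 3 ≤ b) ∧
      (g ^ 13 = 1 → g ≠ 1 → 1 ≤ b) := by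
    intro g
    by_cases hg1 : g = 1
    · subst hg1
      exact ⟨248, hb1, fun _ => rfl, fun _ => by norm_num, fun _ _ => by norm_num, fun _ => by norm_num,
        fun _ => by norm_num, fun _ _ => by norm_num⟩
    rcases hN.spec g with h | h | h | h
    · have n5 : ¬ g ^ 5 = 1 := fun h' => hg1 (coprime_orders h h' (by norm_num))
      have n7 : ¬ g ^ 7 = 1 := fun h' => hg1 (coprime_orders h h' (by norm_num))
      have n13 : ¬ g ^ 13 = 1 := fun h' => hg1 (coprime_orders h h' (by norm_num))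
      have h8 : g ^ 8 = 1 := by rw [show 8 = 4 * 2 from rfl, pow_mul, h, one_pow]
      obtain ⟨t₁, t₂, t₄, hL, e1, e2, e4, o1, o2, o4⟩ := val8 V F h8
      refine ⟨t₁, e1, fun h' => absurd h' hg1, fun _ => ?_, fun _ h2 => ?_, fun h' => absurd h' n5,
        fun h' => absurd h' n7, fun h' => absurd h' n13⟩
      · have h3 : t₄ = 248 := o4.1 (by rw [h, map_one])
        subst h3
        have : ∀ p ∈ L8, p.2.2 = 248 → -8 ≤ p.1 := by decide
        exact this _ hL rfl
      · have h3 : t₄ = 248 := o4.1 (by rw [h, map_one])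
        have h3' : t₂ ≠ 248 := fun h' => hne _ h2 (o2.2 h')
        have : ∀ p ∈ L8, p.2.2 = 248 → p.2.1 ≠ 248 → -4 ≤ p.1 := by decide
        exact this _ hL h3 h3'
    · have n4 : ¬ g ^ 4 = 1 := fun h' => hg1 (coprime_orders h h' (by norm_num))
      have n7 : ¬ g ^ 7 = 1 := fun h' => hg1 (coprime_orders h h' (by norm_num))
      have n13 : ¬ g ^ 13 = 1 := fun h' => hg1 (coprime_orders h h' (by norm_num))
      obtain ⟨t, ht, e, -⟩ := val5 V F h
      refine ⟨t, ?_, fun h' => absurd h' hg1, fun h' => absurd h' n4, fun h' => absurd h' n4, fun _ => ?_,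
        fun h' => absurd h' n7, fun h' => absurd h' n13⟩
      · have := e 1 (by norm_num)
        rwa [pow_one] at this
      · rcases ht with rfl | rfl | rfl | rfl <;> norm_num
    · have n4 : ¬ g ^ 4 = 1 := fun h' => hg1 (coprime_orders h h' (by norm_num))
      have n5 : ¬ g ^ 5 = 1 := fun h' => hg1 (coprime_orders h h' (by norm_num))
      have n13 : ¬ g ^ 13 = 1 := fun h' => hg1 (coprime_orders h h' (by norm_num))
      obtain ⟨t, ht, e⟩ := Cfsg.Agent.H942.L7.val7 V F h (hne g hg1)
      refine ⟨t, ?_, fun h' => absurd h' hg1, fun h' => absurd h' n4, fun h' => absurd h' n4,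
        fun h' => absurd h' n5, fun _ => ?_, fun h' => absurd h' n13⟩
      · have := e 1 (by norm_num)
        rwa [pow_one] at this
      · rcases ht with rfl | rfl <;> norm_num
    · have n4 : ¬ g ^ 4 = 1 := fun h' => hg1 (coprime_orders h h' (by norm_num))
      have n5 : ¬ g ^ 5 = 1 := fun h' => hg1 (coprime_orders h h' (by norm_num))
      have n7 : ¬ g ^ 7 = 1 := fun h' => hg1 (coprime_orders h h' (by norm_num))
      obtain ⟨x, hx⟩ := hN.conj5 g h
      obtain ⟨t, e, ht⟩ := val13 (V := V) (F := F) h (hne g hg1) ⟨F x, by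
        rw [← map_pow, ← hx, map_mul, map_mul, map_inv]⟩
      refine ⟨t, ?_, fun h' => absurd h' hg1, fun h' => absurd h' n4, fun h' => absurd h' n4,
        fun h' => absurd h' n5, fun h' => absurd h' n7, fun _ _ => ?_⟩
      · have := e 1 (by norm_num)
        rwa [pow_one] at this
      · rcases ht with ⟨rfl | rfl, -⟩ | ⟨rfl, -⟩ <;> norm_num
  choose b hb using key
  exact ⟨b, fun g => (hb g).1, (hb 1).2.1 rfl, fun g => (hb g).2.2.1, fun g => (hb g).2.2.2.1,
    fun g => (hb g).2.2.2.2.1, fun g => (hb g).2.2.2.2.2.1, fun g => (hb g).2.2.2.2.2.2⟩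

end Values

/-- **Task SZ2.** -/
theorem dims : Cfsg.Agent.H540.E8C.Sz.Dims := by
  intro Q _ _ hN F hF y hy hy1
  classical
  have : Fintype Q := Fintype.ofFinite Q
  obtain ⟨M, V, hM, hV, hch⟩ := Cfsg.Agent.H942.Common.exists_V
  have hFy : F y ≠ 1 := fun h => hy1 (hF (by rw [h, map_one]))
  obtain ⟨b, hb, hb1, hb4, hb4', hb5, hb7, hb13⟩ := exists_val V hN hF
  obtain ⟨x, hx⟩ := hN.conj5 y hy
  obtain ⟨t, e, ht⟩ := val13 (V := V) (F := F) hy hFy ⟨F x, by
    rw [← map_pow, ← hx, map_mul, map_mul, map_inv]⟩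
  -- the dimension of the fixed space
  have hdim := Cfsg.Agent.H451.L7.dim M V hM hV Q F (Finset.univ : Finset Q).toList (Finset.nodup_toList _)
    (Finset.mem_toList.2 (Finset.mem_univ _)) (fun a _ b _ => Finset.mem_toList.2 (Finset.mem_univ _))
    (by rw [Finset.length_toList, Finset.card_univ, ← Nat.card_eq_fintype_card, hN.card]; norm_num)
  rw [Finset.sum_map_toList, Finset.length_toList, Finset.card_univ, ← Nat.card_eq_fintype_card, hN.card] at hdim
  have hfix : Cfsg.Agent.H942.L7.fixL F (Finset.univ : Finset Q).toList = fixV F.range := by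
    ext v
    constructor
    · rintro h _ ⟨g, rfl⟩
      exact h g (Finset.mem_toList.2 (Finset.mem_univ _))
    · intro h g _
      exact h (F g) ⟨g, rfl⟩
  rw [hfix, Finset.sum_congr rfl fun g _ => hb g] at hdim
  have hdim' : ∑ g, b g = 29120 * (finrank (ZMod 3) ↥(fixV F.range) : ℤ) := by exact_mod_cast hdim
  rcases ht with ⟨-, hP⟩ | ⟨ht, hC⟩
  · left
    refine ⟨hP, ?_⟩
    have h1 := sum_bound hN hb1 hb4 hb4' hb5 hb7 hb13
    omega
  · right
    subst ht
    have hall : ∀ g : Q, g ^ 13 = 1 → g ≠ 1 → (66 : ℤ) ≤ b g := by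
      intro g hg hg1
      obtain ⟨h, d, hd, hh⟩ := conj_pow hN hy hy1 hg hg1
      have h1 := e d hd
      rw [← hh, bc_conj 3 (adj V F) g h, hb g] at h1
      have h2 : b g = 66 := by exact_mod_cast h1
      rw [h2]
    refine ⟨hC, ?_, ?_⟩
    · have h1 := sum_bound hN hb1 hb4 hb4' hb5 hb7 hall
      omega
    · -- the fixed space of `y`
      let L : List Q := (List.range 13).map fun i => y ^ i
      have hord : orderOf y = 13 := orderOf_eq_prime hy hy1 (hp := ⟨by norm_num⟩)
      have hLmem : ∀ i : ℕ, y ^ i ∈ L := by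
        intro i
        refine List.mem_map.2 ⟨i % 13, List.mem_range.2 (Nat.mod_lt _ (by norm_num)), ?_⟩
        exact (pow_eq_pow_mod i hy).symm
      have hnd : L.Nodup := by
        refine List.Nodup.map_on (fun i hi j hj hij => ?_) List.nodup_range
        rw [List.mem_range] at hi hj
        exact pow_injOn_Iio_orderOf (by rw [hord]; exact hi) (by rw [hord]; exact hj) hij
      have hdy := Cfsg.Agent.H451.L7.dim M V hM hV Q F L hnd (by simpa using hLmem 0) (by
        intro a ha b hb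
        obtain ⟨i, -, rfl⟩ := List.mem_map.1 ha
        obtain ⟨j, -, rfl⟩ := List.mem_map.1 hb
        rw [← pow_add]
        exact hLmem _) (by simp only [L, List.length_map, List.length_range]; norm_num)
      have hlen : L.length = 13 := by simp [L]
      rw [hlen] at hdy
      have hsum : (L.map fun g => bc 3 (adj V F) g).sum = ((1040 : ℤ) : ℂ) := by
        have h1 : (L.map fun g => bc 3 (adj V F) g) = ((List.range 13).map fun i => (((if i = 0 then 248 else 66 : ℤ)) : ℂ)) := by
          rw [List.map_map]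
          refine List.map_congr_left fun i hi => ?_
          rw [List.mem_range] at hi
          show bc 3 (adj V F) (y ^ i) = _
          by_cases h0 : i = 0
          · subst h0
            rw [pow_zero, hb 1, hb1, if_pos rfl]
          · rw [if_neg h0]
            exact e i fun hdvd => h0 (Nat.eq_zero_of_dvd_of_lt hdvd hi)
        rw [h1]
        simp only [List.range_succ, List.range_zero, List.nil_append, List.map_append, List.map_cons, List.map_nil,
          List.sum_append, List.sum_cons, List.sum_nil]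
        norm_num
      rw [hsum] at hdy
      have hfy : finrank (ZMod 3) ↥(Cfsg.Agent.H942.L7.fixL F L) = 80 := by
        have h1 : (1040 : ℤ) = 13 * (finrank (ZMod 3) ↥(Cfsg.Agent.H942.L7.fixL F L) : ℤ) := by exact_mod_cast hdy
        omega
      have hiff : ∀ v : LL, ac (F y) v = v ↔ v ∈ Cfsg.Agent.H942.L7.fixL F L := by
        intro v
        constructor
        · intro h g hg
          obtain ⟨i, -, rfl⟩ := List.mem_map.1 hg
          show ac (F (y ^ i)) v = v
          induction i with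
          | zero => rw [pow_zero, map_one, ac_one]
          | succ i ih => rw [pow_succ, map_mul, ac_mul, h]; exact ih (hLmem i)
        · intro h
          have := h (y ^ 1) (hLmem 1)
          rwa [pow_one] at this
      rw [Nat.card_congr (Equiv.subtypeEquivRight hiff : {v : LL // ac (F y) v = v} ≃
        ↥(Cfsg.Agent.H942.L7.fixL F L))]
      rw [Module.natCard_eq_pow_finrank (K := ZMod 3), hfy, Nat.card_zmod]

end Cfsg.Agent.H934.Sz
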